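import Cfsg.Agent.H506.DPL.Defs2

/-!
# S4247, row `[L]`: three separated points (helper735)

`st_three : StForm → StDec → StCen → StThree`.
-/

set_option autoImplicit false
set_option linter.unusedSectionVars false

namespace Cfsg.Agent.H735.DPL

open Matrix Module Cfsg Cfsg.Agent.H167.OP Cfsg.Agent.H170.HL Cfsg.Agent.H556.HallRowAbs Cfsg.Agent.H553.RV
open Cfsg.Agent.H817.DPi Cfsg.Agent.H506.DPL

variable {F : Type} [Field F] {n m : ℕ} {f : Fin m → (Matrix (Fin n) (Fin n) F)ˣ}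

/-- the components of `v` -/
structure Dec (f : Fin m → (Matrix (Fin n) (Fin n) F)ˣ) (v v0 : Fin n → F) (w : Fin m → (Fin n → F)) : Prop where
  zero : v0 ∈ V0 f
  mem : ∀ i, w i ∈ Rg (rg F n) (f i)
  eq : v = v0 + ∑ i, w i

theorem fix_V0 {v : Fin n → F} (hv : v ∈ V0 f) (i : Fin m) : rg F n (f i) v = v := by
  have h1 := (Submodule.mem_iInf _).mp hv i
  rw [LinearMap.mem_ker] at h1
  have h2 : rg F n (f i) v - v = 0 := h1
  exact sub_eq_zero.mp h2

/-- the properties used -/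
structure Good (f : Fin m → (Matrix (Fin n) (Fin n) F)ˣ) : Prop where
  ind : ∀ i j, i ≠ j → ∀ w ∈ Rg (rg F n) (f j), rg F n (f i) w = w
  fp : ∀ i, ∀ w ∈ Rg (rg F n) (f i), rg F n (f i) w = w → w = 0

theorem Dec.uniq (hg : Good f) {v v0 v0' : Fin n → F} {w w' : Fin m → (Fin n → F)} (h : Dec f v v0 w) (h' : Dec f v v0' w') :
    v0 = v0' ∧ w = w' := by
  have h0 : (v0 - v0') + ∑ i, (w i - w' i) = 0 := by
    rw [Finset.sum_sub_distrib]
    have := h.eq.symm.trans h'.eq
    linear_combination (exp := 1) this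
  have hv : v0 - v0' ∈ V0 f := Submodule.sub_mem _ h.zero h'.zero
  have hw : ∀ i, w i - w' i ∈ Rg (rg F n) (f i) := fun i => Submodule.sub_mem _ (h.mem i) (h'.mem i)
  have key : ∀ i, w i - w' i = 0 := by
    intro i
    apply hg.fp i _ (hw i)
    have h1 := congrArg (rg F n (f i)) h0
    rw [map_add, map_sum, map_zero, fix_V0 hv] at h1
    have h2 : ∑ j, rg F n (f i) (w j - w' j) = ∑ j, (w j - w' j) + (rg F n (f i) (w i - w' i) - (w i - w' i)) := by
      rw [← Finset.add_sum_erase _ _ (Finset.mem_univ i), ← Finset.add_sum_erase _ (fun j => w j - w' j) (Finset.mem_univ i)]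
      have h3 : ∑ j ∈ Finset.univ.erase i, rg F n (f i) (w j - w' j) = ∑ j ∈ Finset.univ.erase i, (w j - w' j) := by
        refine Finset.sum_congr rfl fun j hj => ?_
        exact hg.ind i j (Finset.ne_of_mem_erase hj).symm _ (hw j)
      rw [h3]
      abel
    rw [h2, ← add_assoc, h0, zero_add] at h1
    exact sub_eq_zero.mp h1
  refine ⟨?_, funext fun i => sub_eq_zero.mp (key i)⟩
  rw [Finset.sum_congr rfl (fun i _ => key i), Finset.sum_const_zero, add_zero] at h0
  exact sub_eq_zero.mp h0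

theorem Dec.smul {v v0 : Fin n → F} {w : Fin m → (Fin n → F)} (h : Dec f v v0 w) (c : F) :
    Dec f (c • v) (c • v0) (fun i => c • w i) :=
  ⟨Submodule.smul_mem _ _ h.zero, fun i => Submodule.smul_mem _ _ (h.mem i), by
    rw [h.eq, smul_add, Finset.smul_sum]⟩

/-- a map which permutes the `W i` and fixes `V0` -/
structure PM (f : Fin m → (Matrix (Fin n) (Fin n) F)ˣ) (h : Equiv.Perm (Fin n → F)) (σ : Equiv.Perm (Fin m)) : Prop where
  add : ∀ v w, h (v + w) = h v + h w
  zero : ∀ v ∈ V0 f, h v ∈ V0 f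
  mem : ∀ i, ∀ v ∈ Rg (rg F n) (f i), h v ∈ Rg (rg F n) (f (σ i))

variable {h : Equiv.Perm (Fin n → F)} {σ : Equiv.Perm (Fin m)}

theorem PM.map_zero (hh : PM f h σ) : h 0 = 0 := by
  have h1 := hh.add 0 0
  rw [add_zero] at h1
  exact left_eq_add.mp h1

theorem PM.map_sum (hh : PM f h σ) {ι : Type*} (s : Finset ι) (w : ι → (Fin n → F)) : h (∑ i ∈ s, w i) = ∑ i ∈ s, h (w i) := by
  classical
  induction s using Finset.induction_on with
  | empty => rw [Finset.sum_empty, Finset.sum_empty, hh.map_zero]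
  | insert a s ha ih => rw [Finset.sum_insert ha, Finset.sum_insert ha, hh.add, ih]

theorem PM.dec (hh : PM f h σ) {v v0 : Fin n → F} {w : Fin m → (Fin n → F)} (hv : Dec f v v0 w) :
    Dec f (h v) (h v0) (fun i => h (w (σ.symm i))) := by
  refine ⟨hh.zero _ hv.zero, fun i => ?_, ?_⟩
  · have h1 := hh.mem _ _ (hv.mem (σ.symm i))
    rwa [σ.apply_symm_apply] at h1
  · rw [hv.eq, hh.add, hh.map_sum]
    congr 1
    exact (Equiv.sum_comp σ.symm fun i => h (w i)).symm

theorem PM.eq_zero (hh : PM f h σ) {v : Fin n → F} (hv : h v = 0) : v = 0 :=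
  h.injective (hv.trans hh.map_zero.symm)

/-- the number of nonzero components -/
noncomputable def sz (w : Fin m → (Fin n → F)) : ℕ := Nat.card {i // w i ≠ 0}

theorem sz_smul (w : Fin m → (Fin n → F)) {c : F} (hc : c ≠ 0) : sz (fun i => c • w i) = sz w := by
  unfold sz
  refine Nat.card_congr (Equiv.subtypeEquivRight fun i => ?_)
  rw [Ne, Ne, smul_eq_zero_iff_right hc]

theorem PM.sz (hh : PM f h σ) (w : Fin m → (Fin n → F)) : sz (fun i => h (w (σ.symm i))) = sz w := by
  unfold DPL.sz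
  refine Nat.card_congr (σ.symm.subtypeEquiv fun i => ?_)
  rw [Ne, Ne, not_iff_not]
  exact ⟨fun h1 => hh.eq_zero h1, fun h1 => by
    show h (w (σ.symm i)) = 0
    rw [h1, hh.map_zero]⟩

/-- separation by the number of components -/
theorem PM.ne_of_sz (hg : Good f) (hh : PM f h σ) {x x0 y y0 : Fin n → F} {w w' : Fin m → (Fin n → F)}
    (hx : Dec f x x0 w) (hy : Dec f y y0 w') (hx0 : x ≠ 0) (hs : DPL.sz w ≠ DPL.sz w') (c : F) : h x ≠ c • y := by
  intro he
  have hc : c ≠ 0 := by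
    rintro rfl
    rw [zero_smul] at he
    exact hx0 (hh.eq_zero he)
  have h1 := hh.dec hx
  have h2 := hy.smul c
  rw [← he] at h2
  obtain ⟨-, h3⟩ := h1.uniq hg h2
  apply hs
  rw [← hh.sz w, h3, sz_smul _ hc]

/-- separation by the component in `V0` -/
theorem PM.ne_of_zero (hg : Good f) (hh : PM f h σ) {x y y0 : Fin n → F} {w w' : Fin m → (Fin n → F)}
    (hx : Dec f x 0 w) (hy : Dec f y y0 w') (hx0 : x ≠ 0) (hy0 : y0 ≠ 0) (c : F) : h x ≠ c • y := by
  intro he
  have h1 := hh.dec hx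
  have h2 := hy.smul c
  rw [← he] at h2
  obtain ⟨h3, -⟩ := h1.uniq hg h2
  rw [hh.map_zero] at h3
  have hc : c = 0 := by
    rcases smul_eq_zero.mp h3.symm with h4 | h4
    · exact h4
    · exact absurd h4 hy0
  rw [hc, zero_smul] at he
  exact hx0 (hh.eq_zero he)

/-- the components of partial sums -/
theorem dec_part {u : Fin m → (Fin n → F)} (hu : ∀ i, u i ∈ Rg (rg F n) (f i)) {v0 : Fin n → F} (hv0 : v0 ∈ V0 f)
    (A : Finset (Fin m)) : Dec f (v0 + ∑ i ∈ A, u i) v0 (fun i => if i ∈ A then u i else 0) := by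
  classical
  refine ⟨hv0, fun i => ?_, ?_⟩
  · show (if i ∈ A then u i else 0) ∈ _
    split_ifs
    · exact hu i
    · exact Submodule.zero_mem _
  · rw [Finset.sum_ite_mem, Finset.univ_inter]

theorem sz_part {u : Fin m → (Fin n → F)} (hu : ∀ i, u i ≠ 0) (A : Finset (Fin m)) :
    sz (fun i => if i ∈ A then u i else 0) = A.card := by
  unfold sz
  have h1 : Nat.card {i // (fun i => if i ∈ A then u i else 0) i ≠ 0} = Nat.card {i // i ∈ A} := by
    refine Nat.card_congr (Equiv.subtypeEquivRight fun i => ?_)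
    show (if i ∈ A then u i else 0) ≠ 0 ↔ _
    by_cases hi : i ∈ A
    · rw [if_pos hi]
      exact ⟨fun _ => hi, fun _ => hu i⟩
    · rw [if_neg hi]
      exact ⟨fun h1 => absurd rfl h1, fun h1 => absurd h1 hi⟩
  rw [h1, Nat.card_eq_fintype_card, Fintype.card_coe]

theorem part_ne (hg : Good f) {u : Fin m → (Fin n → F)} (hu : ∀ i, u i ∈ Rg (rg F n) (f i)) (hu0 : ∀ i, u i ≠ 0)
    {v0 : Fin n → F} (hv0 : v0 ∈ V0 f) {A : Finset (Fin m)} (h : v0 ≠ 0 ∨ A.Nonempty) : v0 + ∑ i ∈ A, u i ≠ 0 := by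
  intro he
  have h1 := dec_part hu hv0 A
  have h2 : Dec f (v0 + ∑ i ∈ A, u i) 0 (fun _ => 0) :=
    ⟨Submodule.zero_mem _, fun _ => Submodule.zero_mem _, by rw [he, Finset.sum_const_zero, add_zero]⟩
  obtain ⟨h3, h4⟩ := h1.uniq hg h2
  rcases h with h | ⟨i, hi⟩
  · exact h h3
  · have h5 := congrFun h4 i
    beta_reduce at h5
    rw [if_pos hi] at h5
    exact hu0 i h5

theorem map_pow_eq {g : (Matrix (Fin n) (Fin n) F)ˣ} (hσ : ∀ i, (Rg (rg F n) (f i)).map (rg F n g) = Rg (rg F n) (f (σ i)))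
    (k : ℕ) (i : Fin m) : (Rg (rg F n) (f i)).map (rg F n (g ^ k)) = Rg (rg F n) (f ((σ ^ k) i)) := by
  induction k with
  | zero =>
    rw [pow_zero, map_one, pow_zero]
    exact Submodule.map_id _
  | succ k ih =>
    have h1 : rg F n (g ^ (k + 1)) = rg F n g ∘ₗ rg F n (g ^ k) := by rw [pow_succ', map_mul]; rfl
    rw [h1, Submodule.map_comp, ih, hσ, pow_succ', Equiv.Perm.mul_apply]

theorem inj_of_good (hg : Good f) {u : Fin m → (Fin n → F)} (hu : ∀ i, u i ∈ Rg (rg F n) (f i)) (hu0 : ∀ i, u i ≠ 0)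
    {i j : Fin m} (h : Rg (rg F n) (f i) = Rg (rg F n) (f j)) : i = j := by
  by_contra hij
  apply hu0 j
  apply hg.fp i
  · rw [h]; exact hu j
  · exact hg.ind i j hij _ (hu j)

/-- **Three separated points.** -/
theorem st_three (hForm : StForm) (hDec : StDec) (hCen : StCen) : StThree := by
  classical
  intro π p F _ _ _ n P P' K t m f hp hpπ h2π hn hK hL hFr hor
  obtain ⟨hdim, hlt, hinv, hall, hfp⟩ := hDec π p F n P' t m f hp hpπ hFr
  have hg : Good f := by
    refine ⟨fun i j hij w hw => ?_, hfp⟩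
    obtain ⟨v, rfl⟩ := mem_Rg.mp hw
    exact hFr.fm.ind i j hij v
  have hu : ∀ i, ∃ u ∈ Rg (rg F n) (f i), u ≠ 0 := by
    intro i
    apply Submodule.exists_mem_ne_zero_of_ne_bot
    intro h0
    have h1 : finrank F (Rg (rg F n) (f i)) = eo F t := (hFr.fm.isZ i).2
    rw [h0, finrank_bot] at h1
    omega
  choose u hu hu0 using hu
  -- the permutation of an element of `P'`
  have hperm : ∀ g ∈ P', ∃ σ : Equiv.Perm (Fin m), ∀ i, (Rg (rg F n) (f i)).map (rg F n g) = Rg (rg F n) (f (σ i)) := by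
    intro g hgP
    choose τ hτ using hFr.perm g hgP
    have hinj : Function.Injective τ := by
      intro i j hij
      apply inj_of_good hg hu hu0
      have h1 : (Rg (rg F n) (f i)).map (rg F n g) = (Rg (rg F n) (f j)).map (rg F n g) := by
        rw [hτ, hτ, hij]
      have h2 : Function.Injective (rg F n g) := by
        intro v w hvw
        have h3 := congrArg (rg F n g⁻¹) hvw
        rwa [inv_ap, inv_ap] at h3
      exact Submodule.map_injective_of_injective h2 h1
    exact ⟨Equiv.ofBijective τ (Finite.injective_iff_bijective.mp hinj), hτ⟩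
  have hPM : ∀ h ∈ hat (AA P K), ∃ (g : (Matrix (Fin n) (Fin n) F)ˣ) (σ : Equiv.Perm (Fin m)), g ∈ P' ∧
      (∀ i, (Rg (rg F n) (f i)).map (rg F n g) = Rg (rg F n) (f (σ i))) ∧ PM f h σ := by
    intro h hh
    obtain ⟨s, k, α, hs, hk, hα, hI, hform⟩ := hForm π F n P P' K hn hK hL h hh
    obtain ⟨hc1, hc2, -⟩ := hCen π p F n P P' t m f hp hpπ hn hL hFr k α hk hI (hK α hα)
    obtain ⟨σ, hσ⟩ := hperm _ hs
    refine ⟨toU s, σ, hs, hσ, fun v w => ?_, fun v hv => ?_, fun i v hv => ?_⟩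
    · rw [hform, hform, hform, hk.1, mulVec_add]
    · rw [hform]
      exact hinv _ hs _ (hc2 v hv)
    · rw [hform, ← hσ i]
      exact ⟨k v, hc1 i v hv, rfl⟩
  -- separation
  have sepN : ∀ {v v' : Fin n → F} {A A' : Finset (Fin m)}, v ∈ V0 f → v' ∈ V0 f → (v ≠ 0 ∨ A.Nonempty) →
      A.card ≠ A'.card → Sep (AA P K) (v + ∑ i ∈ A, u i) (v' + ∑ i ∈ A', u i) := by
    intro v v' A A' hv hv' hne hcard h hh c
    obtain ⟨g, σ, -, -, hpm⟩ := hPM h hh
    exact hpm.ne_of_sz hg (dec_part hu hv A) (dec_part hu hv' A') (part_ne hg hu hu0 hv hne)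
      (by rw [sz_part hu0, sz_part hu0]; exact hcard) c
  have hz : (0 : Fin n → F) ∈ V0 f := Submodule.zero_mem _
  rcases Nat.eq_zero_or_pos (finrank F (V0 f)) with hV | hV
  · have hm : 2 ≤ m := by
      rcases hor with h | h
      · omega
      · exact h
    rcases Nat.lt_or_ge 2 m with hm3 | hm2
    · -- `m ≥ 3`
      let i0 : Fin m := ⟨0, by omega⟩
      let i1 : Fin m := ⟨1, by omega⟩
      let i2 : Fin m := ⟨2, hm3⟩
      have h01 : i0 ≠ i1 := by simp [i0, i1]
      have h02 : i0 ≠ i2 := by simp [i0, i2]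
      have h12 : i1 ≠ i2 := by simp [i1, i2]
      have c1 : ({i0} : Finset (Fin m)).card = 1 := Finset.card_singleton _
      have c2 : ({i0, i1} : Finset (Fin m)).card = 2 := Finset.card_pair h01
      have c3 : ({i0, i1, i2} : Finset (Fin m)).card = 3 := Finset.card_eq_three.mpr ⟨i0, i1, i2, h01, h02, h12, rfl⟩
      have n1 : ({i0} : Finset (Fin m)).Nonempty := Finset.singleton_nonempty _
      have n2 : ({i0, i1} : Finset (Fin m)).Nonempty := Finset.insert_nonempty _ _
      have n3 : ({i0, i1, i2} : Finset (Fin m)).Nonempty := Finset.insert_nonempty _ _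
      exact ⟨0 + ∑ i ∈ {i0}, u i, 0 + ∑ i ∈ {i0, i1}, u i, 0 + ∑ i ∈ {i0, i1, i2}, u i,
        part_ne hg hu hu0 hz (Or.inr n1), part_ne hg hu hu0 hz (Or.inr n2), part_ne hg hu hu0 hz (Or.inr n3),
        sepN hz hz (Or.inr n1) (by rw [c1, c2]; norm_num), sepN hz hz (Or.inr n1) (by rw [c1, c3]; norm_num),
        sepN hz hz (Or.inr n2) (by rw [c2, c3]; norm_num)⟩
    · -- `m = 2`
      have hm' : m = 2 := le_antisymm hm2 hm
      subst hm'
      have c1 : ∀ i : Fin 2, ({i} : Finset (Fin 2)).card = 1 := fun i => Finset.card_singleton _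
      have c2 : ({0, 1} : Finset (Fin 2)).card = 2 := Finset.card_pair (by decide)
      have n1 : ∀ i : Fin 2, ({i} : Finset (Fin 2)).Nonempty := fun i => Finset.singleton_nonempty _
      have n2 : ({0, 1} : Finset (Fin 2)).Nonempty := Finset.insert_nonempty _ _
      refine ⟨0 + ∑ i ∈ {0}, u i, 0 + ∑ i ∈ {1}, u i, 0 + ∑ i ∈ {0, 1}, u i,
        part_ne hg hu hu0 hz (Or.inr (n1 0)), part_ne hg hu hu0 hz (Or.inr (n1 1)), part_ne hg hu hu0 hz (Or.inr n2),
        ?_, sepN hz hz (Or.inr (n1 0)) (by rw [c1, c2]; norm_num), sepN hz hz (Or.inr (n1 1)) (by rw [c1, c2]; norm_num)⟩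
      intro h hh c he
      obtain ⟨g, σ, hgP, hσ, hpm⟩ := hPM h hh
      have hσ1 : σ = 1 := by
        have h1 : σ ^ orderOf g = 1 := by
          ext i
          rw [Equiv.Perm.one_apply]
          have h2 := map_pow_eq hσ (orderOf g) i
          rw [pow_orderOf_eq_one, map_one] at h2
          have h3 : (Rg (rg F n) (f i)).map (1 : Module.End F (Fin n → F)) = Rg (rg F n) (f i) := Submodule.map_id _
          rw [h3] at h2
          rw [← inj_of_good hg hu hu0 h2]
        have h2 : σ ^ 2 = 1 := (by decide : ∀ σ : Equiv.Perm (Fin 2), σ ^ 2 = 1) σ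
        have h3 : ¬ 2 ∣ orderOf g := by
          intro hd
          have h4 : orderOf g ∣ Nat.card P' := Subgroup.orderOf_dvd_natCard P' hgP
          exact (hFr.hc.ok 2 Nat.prime_two (hd.trans h4)).1 rfl
        have h4 : Nat.Coprime 2 (orderOf g) := (Nat.Prime.coprime_iff_not_dvd Nat.prime_two).mpr h3
        have h5 : orderOf σ ∣ 1 := by
          rw [← h4]
          exact Nat.dvd_gcd (orderOf_dvd_of_pow_eq_one h2) (orderOf_dvd_of_pow_eq_one h1)
        exact orderOf_eq_one_iff.mp (Nat.dvd_one.mp h5)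
      have h1 := hpm.dec (dec_part hu hz {0})
      have h2 := (dec_part hu hz {1}).smul c
      rw [← he] at h2
      obtain ⟨-, h3⟩ := h1.uniq hg h2
      have h4 := congrFun h3 0
      rw [hσ1] at h4
      have h5 : h (u 0) = 0 := by
        have h6 : (Equiv.symm (1 : Equiv.Perm (Fin 2))) 0 = 0 := rfl
        rw [h6, if_pos (Finset.mem_singleton_self _), if_neg (by decide), smul_zero] at h4
        exact h4
      exact hu0 0 (hpm.eq_zero h5)
  · obtain ⟨v0, hv0, hne⟩ := Submodule.exists_mem_ne_zero_of_ne_bot (p := V0 f) (by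
      intro h0
      rw [h0, finrank_bot] at hV
      exact absurd hV (lt_irrefl 0))
    let i0 : Fin m := ⟨0, hFr.pos⟩
    have c1 : ({i0} : Finset (Fin m)).card = 1 := Finset.card_singleton _
    have n1 : ({i0} : Finset (Fin m)).Nonempty := Finset.singleton_nonempty _
    refine ⟨v0 + ∑ i ∈ ∅, u i, 0 + ∑ i ∈ {i0}, u i, v0 + ∑ i ∈ {i0}, u i,
      part_ne hg hu hu0 hv0 (Or.inl hne), part_ne hg hu hu0 hz (Or.inr n1), part_ne hg hu hu0 hv0 (Or.inl hne),
      sepN hv0 hz (Or.inl hne) (by rw [c1, Finset.card_empty]; norm_num),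
      sepN hv0 hv0 (Or.inl hne) (by rw [c1, Finset.card_empty]; norm_num), ?_⟩
    intro h hh c
    obtain ⟨g, σ, -, -, hpm⟩ := hPM h hh
    exact hpm.ne_of_zero hg (dec_part hu hz {i0}) (dec_part hu hv0 {i0}) (part_ne hg hu hu0 hz (Or.inr n1)) hne c

end Cfsg.Agent.H735.DPL
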